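import Groth.Agent.S0055
import Groth.Agent.Krr.H485.LerayCl
import Groth.Agent.Krr.H455.RelCast
import Groth.Agent.Ega1.AmpFamBlow
import Groth.Agent.VarietyB.RestrSeq
import Groth.Agent.Ega2.QCohLocal
import Groth.Agent.Flat2C.BlowProper
import Groth.Agent.Fdesc.LocGenTensor
import Groth.Agent.CurvesB.UnitCoh

/-!
# Descending induction for the direct images of a blow-up

Let `D` be an effective Cartier ideal on `Y₁` whose ideal module `L` is ample over the affine opens of `Y`, `φ : Y₁ ⟶ Y`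
proper with `Y` Noetherian, and `e : E ⟶ Y₁` a closed immersion with ideal `D`.

* `van_comp_closed`: `R^q (ψ ≫ f)_* = 0` from `R^q ψ_* = 0`, `f` a closed immersion.
* `van_push_pull`: `R^q φ_* (e_* e^* M) = 0` from `R^q (e ≫ φ)_* (e^* M) = 0`.
* `van_pow`: `R^q φ_* (L^n) = 0` for all `n ≥ 0`, `q ≥ 1` if `R^q (e ≫ φ)_* e^* (L^n) = 0` for all `n ≥ 0`, `q ≥ 1`.
* `blowUp_van_pow`: the case of a blow-up.
-/

set_option autoImplicit false
universe u

open CategoryTheory CategoryTheory.Limits AlgebraicGeometry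

namespace Groth.Agent.Krr.H446.BlowDesc

open Groth.Agent.Krr.H455.RelCast Groth.Agent.Krr.H485.LerayCl Groth.Agent.Ega3B.RpushAbCmp
open Groth.Agent.Etcore

variable {E X Y Y₁ : Scheme.{u}}

theorem van_iff_rpush (g : E ⟶ Y) (q : ℕ) (M : E.Modules) [HasInjectiveResolutions E.Modules] :
    Van g q M ↔ IsZero ((Coh.Rpush g q).obj M) := by
  have := enoughInjectives_of_hasInjectiveResolutions (C := E.Modules)
  exact isZero_RpushAb_iff g M q

/-- `R^q (ψ ≫ f)_* F = f_* R^q ψ_* F` for a closed immersion `f`. -/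
theorem nonempty_iso_comp_closed (ψ : E ⟶ X) (f : X ⟶ Y) [IsClosedImmersion f]
    [HasInjectiveResolutions E.Modules] (F : E.Modules) (q : ℕ) :
    Nonempty ((Scheme.Modules.pushforward f).obj ((Coh.Rpush ψ q).obj F) ≅ (Coh.Rpush (ψ ≫ f) q).obj F) := by
  have := enoughInjectives_of_hasInjectiveResolutions (C := E.Modules)
  have := Groth.Agent.Sga67.ClosedPush.preservesFiniteColimits_pushforward f
  have h := nonempty_iso_of_acyc (Scheme.Modules.pushforward ψ) (Scheme.Modules.pushforward (ψ ≫ f))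
    (𝟭 _) (Scheme.Modules.pushforward f)
    (Scheme.Modules.pushforwardComp ψ f ≪≫ (Functor.leftUnitor _).symm)
    (fun I hI => DerLES.acyc_of_injective _ _) q F
  exact h

/-- Vanishing of `R^q (ψ ≫ f)_*` from that of `R^q ψ_*`. -/
theorem van_comp_closed (ψ : E ⟶ X) (f : X ⟶ Y) [IsClosedImmersion f] (q : ℕ) (F : E.Modules)
    (h : Van ψ q F) : Van (ψ ≫ f) q F := by
  have := hasInjectiveResolutions E
  rw [van_iff_rpush] at h ⊢
  obtain ⟨e⟩ := nonempty_iso_comp_closed ψ f F q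
  exact IsZero.of_iso ((Scheme.Modules.pushforward f).map_isZero h) e.symm

/-- `R^q φ_* (e_* F) = 0` from `R^q (e ≫ φ)_* F = 0`. -/
theorem van_push (e : E ⟶ Y₁) [IsClosedImmersion e] (φ : Y₁ ⟶ Y) (q : ℕ) (F : E.Modules)
    (h : Van (e ≫ φ) q F) : Van φ q ((Scheme.Modules.pushforward e).obj F) := by
  have := hasInjectiveResolutions E
  have := hasInjectiveResolutions Y₁
  rw [van_iff_rpush] at h ⊢
  obtain ⟨ε⟩ := nonempty_iso e φ F q
  exact IsZero.of_iso h ε.symm

/-- `j_* j^* F ≅ F` for an isomorphism `j`. -/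
theorem nonempty_push_pull_of_isIso {E' : Scheme.{u}} (j : E ⟶ E') [IsIso j] (F : E'.Modules) :
    Nonempty ((Scheme.Modules.pushforward j).obj ((Scheme.Modules.pullback j).obj F) ≅ F) := by
  let G := (Scheme.Modules.pushforward (inv j)).obj F
  let ε : (Scheme.Modules.pushforward j).obj G ≅ F :=
    (Scheme.Modules.pushforwardComp (inv j) j).app F ≪≫
      (Scheme.Modules.pushforwardCongr (IsIso.inv_hom_id j)).app F ≪≫ (Scheme.Modules.pushforwardId E').app F
  let ε' : (Scheme.Modules.pullback j).obj ((Scheme.Modules.pushforward j).obj G) ≅ G :=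
    (Scheme.Modules.restrictFunctorIsoPullback j).symm.app _ ≪≫
      (Scheme.Modules.restrictFunctorAdjCounitIso j).app G
  exact ⟨(Scheme.Modules.pushforward j).mapIso ((Scheme.Modules.pullback j).mapIso ε.symm ≪≫ ε') ≪≫ ε⟩

/-- `e_* e^* M ≅ i_* i^* M` for `i` the closed subscheme of the ideal of the closed immersion `e`. -/
theorem nonempty_push_pull_iso (e : E ⟶ Y₁) [IsClosedImmersion e] (D : Y₁.IdealSheafData) (hD : e.ker = D)
    (M : Y₁.Modules) :
    Nonempty ((Scheme.Modules.pushforward e).obj ((Scheme.Modules.pullback e).obj M) ≅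
      (Scheme.Modules.pushforward D.subschemeι).obj ((Scheme.Modules.pullback D.subschemeι).obj M)) := by
  subst hD
  let i : e.ker.subscheme ⟶ Y₁ := e.ker.subschemeι
  let j : E ⟶ e.ker.subscheme := e.toImage
  have : IsIso j := inferInstanceAs (IsIso e.toImage)
  have w : e = j ≫ i := e.toImage_imageι.symm
  obtain ⟨ε⟩ := nonempty_push_pull_of_isIso j ((Scheme.Modules.pullback i).obj M)
  exact ⟨(Scheme.Modules.pushforwardCongr w).app _ ≪≫
    (Scheme.Modules.pushforwardComp j i).symm.app _ ≪≫ (Scheme.Modules.pushforward i).mapIso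
      ((Scheme.Modules.pushforward j).mapIso ((Scheme.Modules.pullbackCongr w).app M ≪≫
        (Scheme.Modules.pullbackComp j i).symm.app M) ≪≫ ε)⟩

/-- `R^q φ_* (i_* i^* M) = 0` from `R^q (e ≫ φ)_* (e^* M) = 0`. -/
theorem van_push_pull (e : E ⟶ Y₁) [IsClosedImmersion e] (D : Y₁.IdealSheafData) (hD : e.ker = D)
    (φ : Y₁ ⟶ Y) (q : ℕ) (M : Y₁.Modules) (h : Van (e ≫ φ) q ((Scheme.Modules.pullback e).obj M)) :
    Van φ q ((Scheme.Modules.pushforward D.subschemeι).obj
      ((Scheme.Modules.pullback D.subschemeι).obj M)) := by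
  obtain ⟨ε⟩ := nonempty_push_pull_iso e D hD M
  exact van_of_iso φ q ε (van_push e φ q _ h)

open Groth.Agent.VarietyB.TensCoh Groth.Agent.VarietyB.RestrSeq

theorem isInvertible_pow {L : Y₁.Modules} (hL : PicF.IsInvertible L) (n : ℕ) :
    PicF.IsInvertible (CohB1.tensorPow L n) := by
  induction n with
  | zero => exact Groth.Agent.Fdesc.LocGen.isInvertible_structureModule
  | succ n ih => exact Groth.Agent.Fdesc.LocGen.isInvertible_tensorMod ih hL

theorem hasBases_of_isInvertible {L : Y₁.Modules} (hL : PicF.IsInvertible L) : HasBases L :=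
  HasBases.of_isFinLocFreeOfRank (Groth.Agent.Ega2.QCohLocal.isFinLocFreeOfRank_one_iff.mpr hL)

/-- One step of the descending induction. -/
theorem van_step (D : Y₁.IdealSheafData) (hL : PicF.IsInvertible (ClSub.idealMod D))
    (φ : Y₁ ⟶ Y) (q n : ℕ)
    (h3 : Van φ q ((Scheme.Modules.pushforward D.subschemeι).obj
      ((Scheme.Modules.pullback D.subschemeι).obj (CohB1.tensorPow (ClSub.idealMod D) n))))
    (h1 : Van φ q (CohB1.tensorPow (ClSub.idealMod D) (n + 1))) :
    Van φ q (CohB1.tensorPow (ClSub.idealMod D) n) :=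
  van₂ φ (restrSeq_shortExact (hasBases_of_isInvertible (isInvertible_pow hL n)) D) q h1 h3

/-- The descending induction: `R^q φ_* (L^n) = 0` for all `n ≥ 0`, `q ≥ 1`. -/
theorem van_pow [IsNoetherian Y] (φ : Y₁ ⟶ Y) [IsProper φ] (D : Y₁.IdealSheafData)
    (hL : PicF.IsInvertible (ClSub.idealMod D))
    (ha : ∀ W : Y.Opens, IsAffineOpen W → CohB1.IsAmple ((ClSub.idealMod D).restrict (φ ⁻¹ᵁ W).ι))
    (e : E ⟶ Y₁) [IsClosedImmersion e] (hD : e.ker = D)
    (hvan : ∀ n q : ℕ, 1 ≤ q → Van (e ≫ φ) q ((Scheme.Modules.pullback e).obj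
      (CohB1.tensorPow (ClSub.idealMod D) n))) (n q : ℕ) (hq : 1 ≤ q) :
    Van φ q (CohB1.tensorPow (ClSub.idealMod D) n) := by
  obtain ⟨n₀, hn₀⟩ := Groth.Agent.S0055.result φ (ClSub.idealMod D) hL ha (Coh.structureModule Y₁)
    (Groth.Agent.CurvesB.UnitCoh.isCoh_structureModule Y₁)
  have h0 : ∀ n, n₀ ≤ n → Van φ q (CohB1.tensorPow (ClSub.idealMod D) n) := fun n hn =>
    van_of_iso φ q (Groth.Agent.Ega2.Tens.lunit _) (hn₀ n hn q hq)
  have key : ∀ k n, n₀ ≤ n + k → Van φ q (CohB1.tensorPow (ClSub.idealMod D) n) := by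
    intro k
    induction k with
    | zero => intro n hn; exact h0 n hn
    | succ k ih =>
      intro n hn
      exact van_step D hL φ q n (van_push_pull e D hD φ q _ (hvan n q hq)) (ih (n + 1) (by omega))
  exact key n₀ n (by omega)

/-- The case of a blow-up: `R^q φ_* (L^n) = 0` for all `n ≥ 0`, `q ≥ 1`, where `L` is the ideal module of the
exceptional divisor, if `R^q ψ_* (e^* L^n) = 0` for all `n ≥ 0`, `q ≥ 1`. -/
theorem blowUp_van_pow [IsNoetherian Y] (f : X ⟶ Y) [IsClosedImmersion f] (φ : Y₁ ⟶ Y)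
    (hφ : BlowUp.IsBlowUp φ f.ker) (e : E ⟶ Y₁) (ψ : E ⟶ X) [IsClosedImmersion e]
    (hD : e.ker = f.ker.comap φ) (w : e ≫ φ = ψ ≫ f)
    (hvan : ∀ n q : ℕ, 1 ≤ q → IsZero ((Coh.RpushAb ψ q).obj (Coh.toAb ((Scheme.Modules.pullback e).obj
      (CohB1.tensorPow (ClSub.idealMod (f.ker.comap φ)) n))))) (n q : ℕ) (hq : 1 ≤ q) :
    IsZero ((Coh.RpushAb φ q).obj (Coh.toAb (CohB1.tensorPow (ClSub.idealMod (f.ker.comap φ)) n))) := by
  have : IsProper φ := Groth.Agent.Flat2C.BlowProper.isProper_of_isBlowUp hφ fun U => by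
    have := IsLocallyNoetherian.component_noetherian U
    exact IsNoetherian.noetherian _
  refine van_pow φ (f.ker.comap φ) (Groth.Agent.Ega1.IdealGen.isInvertible_idealMod _ hφ.1) ?_ e hD ?_ n q hq
  · intro W hW
    exact Groth.Agent.Ega1.AmpFamBlow.isAmple_restrict hφ ⟨W, hW⟩ _ rfl
  · intro n q hq
    rw [w]
    exact van_comp_closed ψ f q _ (hvan n q hq)

end Groth.Agent.Krr.H446.BlowDesc
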